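import Cfsg.Agent.H520.RC.SpDefs

/-!
# S3510, row D, `PSp_4(3)`: first part (helper711)

Abstract rules for a `G`-set covered by the fixed points of two elements, and the linear algebra of a
symplectic space of dimension 4 over a field with 3 elements.
-/

set_option autoImplicit false
set_option linter.unusedSimpArgs false
open Cfsg

namespace Cfsg.Agent.H711.RC

open MulAction Module Cfsg.Agent.H106.RC Cfsg.Agent.H520.RC

universe u v

section act

variable {G Ω : Type*} [Group G] [MulAction G Ω]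

/-- every point is fixed by one of two elements -/
def Cov2 (Ω : Type*) [MulAction G Ω] (s u : G) : Prop := ∀ ω : Ω, s • ω = ω ∨ u • ω = ω

theorem Cov2.symm {s u : G} (h : Cov2 Ω s u) : Cov2 Ω u s := fun ω => (h ω).symm

/-- `u` may be replaced by `[c, u]` for `c` commuting with `s` -/
theorem Cov2.comm {s u c : G} (h : Cov2 Ω s u) (hc : c * s = s * c) : Cov2 Ω s (c * u * c⁻¹ * u⁻¹) := by
  intro ω
  rcases h ω with h1 | h1
  · exact Or.inl h1
  rcases h (c⁻¹ • ω) with h2 | h2
  · left
    have h3 : (c * s * c⁻¹) • ω = ω := by rw [mul_smul, mul_smul, h2, smul_inv_smul]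
    rwa [hc, mul_inv_cancel_right] at h3
  · right
    have h3 : (c * u * c⁻¹) • ω = ω := by rw [mul_smul, mul_smul, h2, smul_inv_smul]
    rw [mul_smul, inv_smul_eq_iff.2 h1.symm, h3]

/-- rule A: `s` inverts the elementary abelian group `⟨e, z⟩` and `u` acts as a transvection -/
theorem Cov2.ruleA {s u e z : G} (h : Cov2 Ω s u) (h1 : s * e * s⁻¹ = e⁻¹) (h2 : s * z * s⁻¹ = z⁻¹)
    (h3 : e * z = z * e) (h4 : u * e * u⁻¹ = e * z) (h5 : u * z * u⁻¹ = z) (h6 : e ^ 3 = 1) (h7 : z ^ 3 = 1) (ω : Ω) :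
    z • ω = ω := by
  have key : ∀ e : G, s * e * s⁻¹ = e⁻¹ → e * z = z * e → u * e * u⁻¹ = e * z → e ^ 3 = 1 →
      e ∈ stabilizer G ω ∨ z ∈ stabilizer G ω := by
    intro e h1 h3 h4 h6
    set H := stabilizer G ω with hH
    have hco : Commute e z := h3
    -- the three conjugates
    have hA : ∀ v : G, v * s * v⁻¹ ∈ H ∨ v * u * v⁻¹ ∈ H := by
      intro v
      rcases h (v⁻¹ • ω) with h8 | h8
      · left
        show (v * s * v⁻¹) • ω = ω
        rw [mul_smul, mul_smul, h8, smul_inv_smul]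
      · right
        show (v * u * v⁻¹) • ω = ω
        rw [mul_smul, mul_smul, h8, smul_inv_smul]
    have e1 : s * e⁻¹ = e * s := by
      have : s * e⁻¹ * s⁻¹ = e := by
        have h8 := congrArg (·⁻¹) h1
        simp only [mul_inv_rev, inv_inv] at h8
        rw [← mul_assoc] at h8
        exact h8
      exact mul_inv_eq_iff_eq_mul.1 this
    have e2 : u * e⁻¹ = z⁻¹ * e⁻¹ * u := by
      have h8 := congrArg (·⁻¹) h4
      simp only [mul_inv_rev, inv_inv] at h8
      rw [← mul_assoc] at h8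
      rw [← h8]; group
    have e3 : u * z⁻¹ = z⁻¹ * u := by
      have h8 := congrArg (·⁻¹) h5
      simp only [mul_inv_rev, inv_inv] at h8
      rw [← mul_assoc] at h8
      conv_rhs => rw [← h8]
      group
    -- conjugates by `e`
    have c1 : e * s * e⁻¹ = e ^ 2 * s := by
      rw [mul_assoc, e1, pow_two, mul_assoc]
    have c2 : e ^ 2 * s * (e ^ 2)⁻¹ = e * s := by
      have : (e ^ 2)⁻¹ = e⁻¹ * e⁻¹ := by group
      rw [this]
      have : e ^ 2 * s * (e⁻¹ * e⁻¹) = e ^ 2 * ((s * e⁻¹) * e⁻¹) := by group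
      rw [this, e1]
      have : e ^ 2 * (e * s * e⁻¹) = e ^ 3 * (s * e⁻¹) := by group
      rw [this, e1, h6, one_mul]
    have d1 : e * u * e⁻¹ = z⁻¹ * u := by
      rw [mul_assoc, e2]
      have : e * (z⁻¹ * e⁻¹ * u) = (e * z⁻¹) * e⁻¹ * u := by group
      rw [this, hco.inv_right.eq]
      group
    have d2 : e ^ 2 * u * (e ^ 2)⁻¹ = z⁻¹ * z⁻¹ * u := by
      have : e ^ 2 * u * (e ^ 2)⁻¹ = e * (e * u * e⁻¹) * e⁻¹ := by rw [pow_two]; group
      rw [this, d1]
      have : e * (z⁻¹ * u) * e⁻¹ = (e * z⁻¹) * (u * e⁻¹) := by group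
      rw [this, hco.inv_right.eq]
      have : z⁻¹ * e * (u * e⁻¹) = z⁻¹ * (e * u * e⁻¹) := by group
      rw [this, d1]; group
    have a0 := hA 1
    have a1 := hA e
    have a2 := hA (e ^ 2)
    rw [one_mul, inv_one, mul_one, one_mul, mul_one] at a0
    rw [c1, d1] at a1
    rw [c2, d2] at a2
    -- two of the same kind
    rcases a0 with b0 | b0
    · rcases a1 with b1 | b1
      · left
        have h8 : e ^ 2 ∈ H := by simpa using H.mul_mem b1 (H.inv_mem b0)
        have h9 : (e ^ 2) ^ 2 = e := by rw [← pow_mul]; calc e ^ (2 * 2) = e ^ 3 * e := by group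
            _ = e := by rw [h6, one_mul]
        rw [← h9]; exact H.pow_mem h8 2
      · rcases a2 with b2 | b2
        · left
          simpa using H.mul_mem b2 (H.inv_mem b0)
        · right
          have h8 : z⁻¹ ∈ H := by simpa using H.mul_mem b2 (H.inv_mem b1)
          simpa using H.inv_mem h8
    · rcases a1 with b1 | b1
      · rcases a2 with b2 | b2
        · left
          have h8 : e ^ 2 * e⁻¹ ∈ H := by simpa using H.mul_mem b1 (H.inv_mem b2)
          have h9 : e ^ 2 * e⁻¹ = e := by group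
          rwa [h9] at h8
        · right
          have h8 : z⁻¹ * z⁻¹ ∈ H := by simpa using H.mul_mem b2 (H.inv_mem b0)
          have h9 : z⁻¹ * z⁻¹ = z := by
            calc z⁻¹ * z⁻¹ = (z ^ 3)⁻¹ * z := by group
              _ = z := by rw [h7, inv_one, one_mul]
          rwa [h9] at h8
      · right
        have h8 : z⁻¹ ∈ H := by simpa using H.mul_mem b1 (H.inv_mem b0)
        simpa using H.inv_mem h8
  rcases key e h1 h3 h4 h6 with h8 | h8
  · have k1 : s * (e * z) * s⁻¹ = (e * z)⁻¹ := by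
      have : s * (e * z) * s⁻¹ = (s * e * s⁻¹) * (s * z * s⁻¹) := by group
      rw [this, h1, h2, h3, mul_inv_rev]
    have k2 : e * z * z = z * (e * z) := by
      rw [← mul_assoc, ← h3]
    have k3 : u * (e * z) * u⁻¹ = e * z * z := by
      have : u * (e * z) * u⁻¹ = (u * e * u⁻¹) * (u * z * u⁻¹) := by group
      rw [this, h4, h5]
    have k4 : (e * z) ^ 3 = 1 := by
      have h10 : Commute e z := h3
      rw [h10.mul_pow, h6, h7, one_mul]
    rcases key (e * z) k1 k2 k3 k4 with h9 | h9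
    · have : z ∈ stabilizer G ω := by
        have := (stabilizer G ω).mul_mem ((stabilizer G ω).inv_mem h8) h9
        rwa [inv_mul_cancel_left] at this
      exact this
    · exact h9
  · exact h8

/-- rule C: `z` a central involution of `⟨s, g⟩`, and `s`, `s z` -/
theorem Cov2.ruleC {s y g z : G} (h : Cov2 Ω s y) (hy : y = s * z) (h1 : s * z = z * s) (h2 : g * z = z * g)
    (h3 : z * z = 1) (h4 : s * (g * s * g⁻¹) * (s * (g * s * g⁻¹)) = z) (ω : Ω) : z • ω = ω := by
  set H := stabilizer G ω with hH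
  -- `a ∈ {s, s z}` and `b ∈ {g s g⁻¹, g s g⁻¹ z}`
  have ha : ∃ a ∈ H, ∃ c, (c = 1 ∨ c = z) ∧ a = s * c := by
    rcases h ω with h5 | h5
    · exact ⟨s, h5, 1, Or.inl rfl, (mul_one s).symm⟩
    · exact ⟨y, h5, z, Or.inr rfl, hy⟩
  have hb : ∃ b ∈ H, ∃ c, (c = 1 ∨ c = z) ∧ b = g * s * g⁻¹ * c := by
    rcases h (g⁻¹ • ω) with h5 | h5
    · refine ⟨g * s * g⁻¹, ?_, 1, Or.inl rfl, (mul_one _).symm⟩
      show (g * s * g⁻¹) • ω = ω
      rw [mul_smul, mul_smul, h5, smul_inv_smul]
    · refine ⟨g * y * g⁻¹, ?_, z, Or.inr rfl, ?_⟩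
      · show (g * y * g⁻¹) • ω = ω
        rw [mul_smul, mul_smul, h5, smul_inv_smul]
      · have h6 : z * g⁻¹ = g⁻¹ * z := by
          have h7 : Commute g z := h2
          exact h7.inv_left.symm.eq
        rw [hy]
        calc g * (s * z) * g⁻¹ = g * s * (z * g⁻¹) := by group
          _ = g * s * g⁻¹ * z := by rw [h6]; group
  obtain ⟨a, ha, c, hc, rfl⟩ := ha
  obtain ⟨b, hb, d, hd, rfl⟩ := hb
  have hgs : Commute (g * s * g⁻¹) z := by
    have c1 : Commute g z := h2
    have c2 : Commute s z := h1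
    exact (c1.mul_left c2).mul_left c1.inv_left
  have hsz : Commute s z := h1
  have h5 := H.mul_mem (H.mul_mem ha hb) (H.mul_mem ha hb)
  have h6 : s * c * (g * s * g⁻¹ * d) * (s * c * (g * s * g⁻¹ * d)) = z := by
    have k1 : ∀ c, (c = 1 ∨ c = z) → Commute s c ∧ Commute (g * s * g⁻¹) c ∧ c * c = 1 := by
      rintro c (rfl | rfl)
      · exact ⟨Commute.one_right _, Commute.one_right _, one_mul 1⟩
      · exact ⟨hsz, hgs, h3⟩
    obtain ⟨c1, c2, c3⟩ := k1 c hc
    obtain ⟨d1, d2, d3⟩ := k1 d hd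
    have hcd : Commute c d := by
      rcases hc with rfl | rfl
      · exact Commute.one_left _
      · rcases hd with rfl | rfl
        · exact Commute.one_right _
        · exact Commute.refl _
    set b := g * s * g⁻¹ with hb
    have e1 : s * c * (b * d) = s * b * (c * d) := by
      calc s * c * (b * d) = s * (c * b) * d := by group
        _ = s * b * (c * d) := by rw [c2.symm.eq]; group
    have e2 : Commute (s * b) (c * d) := (c1.mul_left c2).mul_right (d1.mul_left d2)
    rw [e1]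
    calc s * b * (c * d) * (s * b * (c * d)) = (s * b) * ((c * d) * (s * b)) * (c * d) := by group
      _ = (s * b) * ((s * b) * (c * d)) * (c * d) := by rw [e2.symm.eq]
      _ = (s * b) * (s * b) * ((c * d) * (c * d)) := by group
      _ = (s * b) * (s * b) * ((c * c) * (d * d)) := by
          congr 1
          calc c * d * (c * d) = c * (d * c) * d := by group
            _ = c * (c * d) * d := by rw [hcd.eq]
            _ = _ := by group
      _ = z := by rw [c3, d3, one_mul, mul_one, h4]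
  rw [h6] at h5
  exact h5

end act

section field

variable {F : Type u} [Field F]

theorem f3_three (h : Nat.card F = 3) : (3 : F) = 0 := by
  have : Finite F := Nat.finite_of_card_ne_zero (by omega)
  have := Fintype.ofFinite F
  have h1 : ((Fintype.card F : ℕ) : F) = 0 := Nat.cast_card_eq_zero F
  rw [← Nat.card_eq_fintype_card, h] at h1
  exact_mod_cast h1

theorem f3_cases (h : Nat.card F = 3) (a : F) : a = 0 ∨ a = 1 ∨ a = -1 := by
  have : Finite F := Nat.finite_of_card_ne_zero (by omega)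
  have := Fintype.ofFinite F
  have h1 : a ^ Fintype.card F = a := FiniteField.pow_card a
  rw [← Nat.card_eq_fintype_card, h] at h1
  have h2 : a * ((a - 1) * (a + 1)) = 0 := by linear_combination h1
  rcases mul_eq_zero.1 h2 with h3 | h3
  · exact Or.inl h3
  · rcases mul_eq_zero.1 h3 with h4 | h4
    · exact Or.inr (Or.inl (sub_eq_zero.1 h4))
    · exact Or.inr (Or.inr (eq_neg_of_add_eq_zero_left h4))

theorem f3_sq (h : Nat.card F = 3) {a : F} (ha : a ≠ 0) : a * a = 1 := by
  rcases f3_cases h a with rfl | rfl | rfl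
  · exact absurd rfl ha
  · ring
  · ring

theorem f3_two (h : Nat.card F = 3) : (2 : F) ≠ 0 := by
  intro h2
  have h3 := f3_three h
  exact one_ne_zero (α := F) (by linear_combination h3 - h2)

theorem f3_sum (h : Nat.card F = 3) {a b : F} (hab : a ≠ 0 ∨ b ≠ 0) : (a * a + b * b) * (a * a + b * b) = 1 := by
  have h3 := f3_three h
  rcases f3_cases h a with rfl | rfl | rfl <;> rcases f3_cases h b with rfl | rfl | rfl
  · simp at hab
  all_goals first | ring1 | linear_combination h3

theorem f3_aut (h : Nat.card F = 3) (σ : F ≃+* F) : σ = 1 := by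
  apply RingEquiv.ext
  intro a
  show σ a = a
  rcases f3_cases h a with rfl | rfl | rfl <;> simp

end field

section lin

variable {F : Type u} {V : Type v} [Field F] [AddCommGroup V] [Module F V] {B : LinearMap.BilinForm F V}

/-- symplectic basis of a space of dimension four -/
structure SB (B : LinearMap.BilinForm F V) (a b c d : V) : Prop where
  ab : B a b = 1
  cd : B c d = 1
  ac : B a c = 0
  ad : B a d = 0
  bc : B b c = 0
  bd : B b d = 0

variable {a b c d : V}

theorem SB.exists_coord (h : NAlt B) (h4 : finrank F V = 4) (hb : SB B a b c d) (v : V) :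
    ∃ x y z w : F, v = x • a + y • b + z • c + w • d := by
  have ba : B b a = -1 := by rw [h.swap, hb.ab]
  have dc : B d c = -1 := by rw [h.swap, hb.cd]
  have ca : B c a = 0 := h.swap0 hb.ac
  have da : B d a = 0 := h.swap0 hb.ad
  have cb : B c b = 0 := h.swap0 hb.bc
  have db : B d b = 0 := h.swap0 hb.bd
  have hli : LinearIndependent F ![a, b, c, d] := by
    rw [Fintype.linearIndependent_iff]
    intro g hg
    simp only [Fin.sum_univ_four, Matrix.cons_val_zero, Matrix.cons_val_one, Matrix.cons_val] at hg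
    have k0 := congrArg (fun v => B v b) hg
    have k1 := congrArg (fun v => B v a) hg
    have k2 := congrArg (fun v => B v d) hg
    have k3 := congrArg (fun v => B v c) hg
    simp only [map_add, map_smul, LinearMap.add_apply, LinearMap.smul_apply, smul_eq_mul, hb.ab, hb.cd, hb.ac, hb.ad,
      hb.bc, hb.bd, ba, dc, ca, da, cb, db, h.alt, mul_zero, add_zero, zero_add, mul_one, map_zero,
      LinearMap.zero_apply, mul_neg, neg_eq_zero] at k0 k1 k2 k3
    intro i
    fin_cases i
    · exact k0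
    · exact k1
    · exact k2
    · exact k3
  have hsp : Submodule.span F (Set.range ![a, b, c, d]) = ⊤ := by
    have : Nonempty (Fin 4) := ⟨0⟩
    exact hli.span_eq_top_of_card_eq_finrank (by rw [Fintype.card_fin, h4])
  have hv : v ∈ Submodule.span F (Set.range ![a, b, c, d]) := by rw [hsp]; trivial
  obtain ⟨g, hg⟩ := (Submodule.mem_span_range_iff_exists_fun F).1 hv
  refine ⟨g 0, g 1, g 2, g 3, ?_⟩
  rw [← hg, Fin.sum_univ_four]
  rfl

/-- the isometries `v ↦ v + (p B(v,e) + q B(v,f)) e + (q B(v,e) + r B(v,f)) f`, `e ⟂ f` -/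
def sg (h : NAlt B) (e f : V) (hef : B e f = 0) (p q r : F) : Sp B :=
  ⟨{ toFun := fun v => v + (p * B v e + q * B v f) • e + (q * B v e + r * B v f) • f
     invFun := fun v => v - (p * B v e + q * B v f) • e - (q * B v e + r * B v f) • f
     left_inv := fun v => by
      have hfe := h.swap0 hef
      simp only [map_add, map_smul, LinearMap.add_apply, LinearMap.smul_apply, smul_eq_mul, h.alt, hef, hfe]
      module
     right_inv := fun v => by
      have hfe := h.swap0 hef
      simp only [map_sub, map_smul, LinearMap.sub_apply, LinearMap.smul_apply, smul_eq_mul, h.alt, hef, hfe]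
      module
     map_add' := fun x y => by
      simp only [map_add, LinearMap.add_apply]
      module
     map_smul' := fun a x => by
      simp only [map_smul, LinearMap.smul_apply, smul_eq_mul, RingHom.id_apply]
      module }, by
    intro x y
    have hfe := h.swap0 hef
    show B (x + (p * B x e + q * B x f) • e + (q * B x e + r * B x f) • f)
      (y + (p * B y e + q * B y f) • e + (q * B y e + r * B y f) • f) = B x y
    simp only [map_add, LinearMap.add_apply, map_smul, LinearMap.smul_apply, smul_eq_mul, h.alt, hef, hfe]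
    rw [h.swap e y, h.swap f y]
    ring⟩

theorem sg_apply (h : NAlt B) {e f : V} (hef : B e f = 0) (p q r : F) (v : V) :
    (sg h e f hef p q r).1 v = v + (p * B v e + q * B v f) • e + (q * B v e + r * B v f) • f := rfl

theorem sg_mul (h : NAlt B) {e f : V} (hef : B e f = 0) (p q r p' q' r' : F) :
    sg h e f hef p q r * sg h e f hef p' q' r' = sg h e f hef (p + p') (q + q') (r + r') := by
  apply Subtype.ext
  apply LinearEquiv.ext
  intro v
  show (sg h e f hef p q r).1 ((sg h e f hef p' q' r').1 v) = _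
  have hfe := h.swap0 hef
  simp only [sg_apply, map_add, map_smul, h.alt, hef, hfe]
  module

theorem sg_zero (h : NAlt B) {e f : V} (hef : B e f = 0) : sg h e f hef 0 0 0 = 1 := by
  apply Subtype.ext
  apply LinearEquiv.ext
  intro v
  show (sg h e f hef 0 0 0).1 v = v
  rw [sg_apply]
  module

theorem sg_inv (h : NAlt B) {e f : V} (hef : B e f = 0) (p q r : F) :
    (sg h e f hef p q r)⁻¹ = sg h e f hef (-p) (-q) (-r) := by
  rw [inv_eq_iff_mul_eq_one, sg_mul, add_neg_cancel, add_neg_cancel, add_neg_cancel, sg_zero]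

theorem sg_congr (h : NAlt B) {e f e' f' : V} (hef : B e f = 0) (hef' : B e' f' = 0) {p q r p' q' r' : F}
    (H : ∀ v, (p * B v e + q * B v f) • e + (q * B v e + r * B v f) • f =
      (p' * B v e' + q' * B v f') • e' + (q' * B v e' + r' * B v f') • f') :
    sg h e f hef p q r = sg h e' f' hef' p' q' r' := by
  apply Subtype.ext
  apply LinearEquiv.ext
  intro v
  rw [sg_apply, sg_apply, add_assoc, add_assoc, H]

/-- conjugation -/
theorem cj_sg (h : NAlt B) (M : SS B) (hM : M.IsLin) {e f : V} (hef : B e f = 0) (p q r : F) :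
    SS.cj M (sg h e f hef p q r) =
      sg h (M e) (M f) (by rw [hM.form, hef, mul_zero]) (p * M.l⁻¹) (q * M.l⁻¹) (r * M.l⁻¹) := by
  apply SS.cj_eq
  intro v
  rw [sg_apply, sg_apply, M.map_add, M.map_add, hM.map_smul, hM.map_smul, hM.form, hM.form]
  have hl := M.hl
  have key : ∀ x y : F, x * M.l⁻¹ * (M.l * y) = x * y := fun x y => by
    rw [mul_assoc, inv_mul_cancel_left₀ hl]
  simp only [key]

end lin

section env

variable {F : Type u} {V : Type v} [Field F] [AddCommGroup V] [Module F V] {B : LinearMap.BilinForm F V}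
variable {G : Type*} [Group G] {Ω : Type*} [MulAction G Ω] {N : Subgroup G} {ρ : ↥(Sp B) →* G} {s y : G} {M L : SS B}

theorem lf_eq [FiniteDimensional F V] (E : SpEnv Ω N ρ) (h : Lf ρ s M) (h' : Lf ρ y L) {a : F} (ha : a ≠ 0)
    (hML : ∀ v, M v = a • L v) : s = y := by
  have h1 : Lf ρ (s * y⁻¹) (M * L⁻¹) := h.mul h'.inv
  refine mul_inv_eq_one.1 ((E.eq_one_iff h1).2 ⟨a, ha, fun v => ?_⟩)
  obtain ⟨v, rfl⟩ := L.surjective v
  rw [SS.mul_apply, SS.inv_apply_self, hML]

/-- the last step: `s = 1 ⊗ i`, `y = j ⊗ 1` -/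
theorem dead_F (E : SpEnv Ω N ρ) [Nonempty Ω] (h3 : Nat.card F = 3) (h4 : finrank F V = 4) {X Y : SS B}
    (hX : Lf ρ s X) (hY : Lf ρ y Y) (hcov : Cov2 Ω s y) {a b c d : V} (hb : SB B a b c d)
    (hXa : X a = c) (hXb : X b = d) (hXc : X c = -a) (hXd : X d = -b)
    (hYa : Y a = b) (hYb : Y b = -a) (hYc : Y c = d) (hYd : Y d = -c) : False := by
  have : FiniteDimensional F V := FiniteDimensional.of_finrank_pos (by omega)
  have h33 := f3_three h3
  have hXl : X.IsLin := f3_aut h3 _
  have hYl : Y.IsLin := f3_aut h3 _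
  have h := E.form
  have ba : B b a = -1 := by rw [h.swap, hb.ab]
  have dc : B d c = -1 := by rw [h.swap, hb.cd]
  have ca : B c a = 0 := h.swap0 hb.ac
  have da : B d a = 0 := h.swap0 hb.ad
  have cb : B c b = 0 := h.swap0 hb.bc
  have db : B d b = 0 := h.swap0 hb.bd
  have hm1 : (-1 : F) ≠ 0 := neg_ne_zero.2 one_ne_zero
  have hs2 : s * s = 1 := by
    refine lf_eq E (hX.mul hX) Lf.one hm1 fun v => ?_
    obtain ⟨x, y, z, w, rfl⟩ := hb.exists_coord h h4 v
    simp only [SS.mul_apply, SS.one_apply, SS.map_add, hXl.map_smul, hXa, hXb, hXc, hXd, SS.map_neg]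
    module
  have hcm : ∀ v, X (Y v) = Y (X v) := by
    intro v
    obtain ⟨x, y, z, w, rfl⟩ := hb.exists_coord h h4 v
    simp only [SS.map_add, hXl.map_smul, hYl.map_smul, hXa, hXb, hXc, hXd, hYa, hYb, hYc, hYd, SS.map_neg]
  have hsy : s * y = y * s := lf_eq E (hX.mul hY) (hY.mul hX) one_ne_zero fun v => by
    rw [one_smul, SS.mul_apply, SS.mul_apply, hcm]
  have hy2 : y * y = 1 := by
    refine lf_eq E (hY.mul hY) Lf.one hm1 fun v => ?_
    obtain ⟨x, y, z, w, rfl⟩ := hb.exists_coord h h4 v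
    simp only [SS.mul_apply, SS.one_apply, SS.map_add, hYl.map_smul, hYa, hYb, hYc, hYd, SS.map_neg]
    module
  have hg : Lf ρ (ρ (tv h (a - d) 1)) (SS.tg (tv h (a - d) 1)) := Lf.tg _
  have hg' : Lf ρ (ρ (tv h (a - d) 1))⁻¹ (SS.tg (tv h (a - d) (-1))) := by
    rw [← map_inv, tv_inv]; exact Lf.tg _
  have hZ : ∀ ω : Ω, (s * y) • ω = ω := by
    refine hcov.ruleC (g := ρ (tv h (a - d) 1)) ?_ ?_ ?_ ?_ ?_
    · rw [← mul_assoc, hs2, one_mul]
    · rw [hsy, ← mul_assoc, hsy, mul_assoc]
    · refine lf_eq E (hg.mul (hX.mul hY)) ((hX.mul hY).mul hg) one_ne_zero fun v => ?_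
      obtain ⟨x, y, z, w, rfl⟩ := hb.exists_coord h h4 v
      simp only [SS.mul_apply, SS.map_add, SS.map_sub, hXl.map_smul, hYl.map_smul, hXa, hXb, hXc, hXd, hYa, hYb, hYc,
        hYd, SS.map_neg, SS.tg_apply, tv_apply, map_add, map_sub, map_smul, map_neg, LinearMap.add_apply,
        LinearMap.sub_apply, LinearMap.neg_apply, LinearMap.smul_apply, smul_eq_mul, ba, dc, ca, da, cb, db, h.alt,
        hb.ab, hb.cd, hb.ac, hb.ad, hb.bc, hb.bd]
      module
    · rw [mul_assoc, ← mul_assoc y s y, ← hsy, mul_assoc, hy2, mul_one, hs2]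
    · refine lf_eq E ((hX.mul ((hg.mul hX).mul hg')).mul (hX.mul ((hg.mul hX).mul hg'))) (hX.mul hY) one_ne_zero fun v => ?_
      obtain ⟨x, y, z, w, rfl⟩ := hb.exists_coord h h4 v
      simp only [SS.mul_apply, SS.map_add, SS.map_sub, hXl.map_smul, hYl.map_smul, hXa, hXb, hXc, hXd, hYa, hYb, hYc,
        hYd, SS.map_neg, SS.tg_apply, tv_apply, map_add, map_sub, map_smul, map_neg, LinearMap.add_apply,
        LinearMap.sub_apply, LinearMap.neg_apply, LinearMap.smul_apply, smul_eq_mul, ba, dc, ca, da, cb, db, h.alt,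
        hb.ab, hb.cd, hb.ac, hb.ad, hb.bc, hb.bd]
      match_scalars <;> grind
  have h5 := E.env.single hZ
  have h6 : Lf ρ (1 : G) (X * Y) := by
    have := hX.mul hY
    rwa [h5] at this
  obtain ⟨k, hk, h7⟩ := (E.eq_one_iff h6).1 rfl
  have h8 := h7 a
  rw [SS.mul_apply, hYa, hXb] at h8
  have h9 := congrArg (fun v => B c v) h8
  simp only [hb.cd, map_smul, ca, smul_zero] at h9
  exact one_ne_zero h9

/-- the commutator `[c, t]` in `Sp B` -/
theorem comm_eq (c t : Sp B) : ρ c * ρ t * (ρ c)⁻¹ * (ρ t)⁻¹ = ρ (c * SS.cj (SS.tg t) c⁻¹) := by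
  rw [SS.cj_tg, map_mul, map_mul, map_mul, map_inv, map_inv]
  group

/-- decomposition with respect to an involution -/
theorem split_of {X : SS B} (h33 : (3 : F) = 0) (v : V) : v = -(v + X v) - (v - X v) := by
  have h : (3 : F) • v = 0 := by rw [h33, zero_smul]
  linear_combination (norm := module) h

/-- type 1: `X ^ 2 = 1`, `μ = -1`, `t` of order 3 -/
theorem dead_T1 (E : SpEnv Ω N ρ) [Nonempty Ω] (h3 : Nat.card F = 3) (h4 : finrank F V = 4) {X : SS B} {t : ↥(Sp B)}
    (hX : Lf ρ s X) (hcov : Cov2 Ω s (ρ t)) (hX2 : ∀ v, X (X v) = v) (hl : X.l = -1)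
    (hcm : ∀ v, X (t.1 v) = t.1 (X v)) (ht3 : ∀ v, t.1 (t.1 (t.1 v)) = v) (ht1 : t ≠ 1) : False := by
  have : FiniteDimensional F V := FiniteDimensional.of_finrank_pos (by omega)
  have h33 := f3_three h3
  have hXl : X.IsLin := f3_aut h3 _
  have h := E.form
  have h2 := f3_two h3
  -- an eigenvector of `X` moved by `t`
  obtain ⟨η, hη, w0, hw0, htw0⟩ : ∃ η : F, η * η = 1 ∧ ∃ w, X w = η • w ∧ t.1 w ≠ w := by
    obtain ⟨v, hv⟩ : ∃ v, t.1 v ≠ v := by
      by_contra hno
      push Not at hno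
      exact ht1 (Subtype.ext (LinearEquiv.ext hno))
    by_cases h5 : t.1 (v + X v) = v + X v
    · refine ⟨-1, by ring, v - X v, ?_, fun h6 => hv ?_⟩
      · rw [SS.map_sub, hX2]; module
      · have h7 := split_of (X := X) h33 v
        rw [h7, map_sub, map_neg, h5, h6]
    · refine ⟨1, by ring, v + X v, ?_, h5⟩
      rw [SS.map_add, hX2, one_smul, add_comm]
  obtain ⟨w2, hw2, hne, hfix⟩ : ∃ w2, X w2 = η • w2 ∧ t.1 w2 - w2 ≠ 0 ∧ t.1 (t.1 w2 - w2) = t.1 w2 - w2 := by
    by_cases h5 : t.1 (t.1 w0 - w0) = t.1 w0 - w0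
    · exact ⟨w0, hw0, sub_ne_zero.2 htw0, h5⟩
    · refine ⟨t.1 w0 - w0, ?_, sub_ne_zero.2 h5, ?_⟩
      · rw [SS.map_sub, hcm, hw0, map_smul]; module
      · have h6 := ht3 w0
        simp only [map_sub, h6]
        have h7 : (3 : F) • t.1 w0 = 0 := by rw [h33, zero_smul]
        have h8 : (3 : F) • t.1 (t.1 w0) = 0 := by rw [h33, zero_smul]
        linear_combination (norm := module) h7 - h8
  set w1 := t.1 w2 - w2 with hw1
  have hXw1 : X w1 = η • w1 := by
    rw [hw1, SS.map_sub, hcm, hw2, map_smul]; module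
  have htw2 : t.1 w2 = w2 + w1 := by rw [hw1]; abel
  clear_value w1
  have h12 : B w1 w2 = 0 := by
    have h5 := hXl.form w1 w2
    rw [hXw1, hw2, hl, map_smul, LinearMap.map_smul₂, smul_eq_mul, smul_eq_mul] at h5
    have h6 : 2 * B w1 w2 = 0 := by linear_combination h5 - B w1 w2 * hη
    exact (mul_eq_zero.1 h6).resolve_left h2
  have hli : (X.l)⁻¹ = -1 := by rw [hl]; norm_num
  have hcjX : ∀ p q r : F, SS.cj X (sg h w1 w2 h12 p q r) = sg h w1 w2 h12 (-p) (-q) (-r) := by
    intro p q r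
    rw [cj_sg h X hXl]
    apply sg_congr
    intro v
    rw [hXw1, hw2, hli]
    simp only [map_smul, smul_eq_mul]
    match_scalars
    · linear_combination (- p * B v w1 - q * B v w2) * hη
    · linear_combination (- q * B v w1 - r * B v w2) * hη
  have hcjt : ∀ p q r : F, SS.cj (SS.tg t) (sg h w1 w2 h12 p q r) = sg h w1 w2 h12 (p + 2 * q + r) (q + r) r := by
    intro p q r
    rw [cj_sg h (SS.tg t) (SS.tg_lin t)]
    apply sg_congr
    intro v
    have h5 : (SS.tg t).l = 1 := rfl
    rw [SS.tg_apply, SS.tg_apply, hfix, htw2, h5, inv_one]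
    simp only [map_add, mul_one]
    module
  have hz : ∀ ω : Ω, ρ (sg h w1 w2 h12 2 0 0) • ω = ω := by
    refine hcov.ruleA (e := ρ (sg h w1 w2 h12 0 1 0)) ?_ ?_ ?_ ?_ ?_ ?_ ?_
    · rw [hX, hcjX, ← map_inv, sg_inv]
    · rw [hX, hcjX, ← map_inv, sg_inv]
    · rw [← map_mul, ← map_mul, sg_mul, sg_mul]
      congr 2 <;> ring
    · rw [Lf.tg t, hcjt, ← map_mul, sg_mul]
      congr 2 <;> ring
    · rw [Lf.tg t, hcjt]
      congr 2 <;> ring
    · rw [← map_pow, pow_succ, pow_two, sg_mul, sg_mul]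
      have : sg h w1 w2 h12 (0 + 0 + 0) (1 + 1 + 1) (0 + 0 + 0) = 1 := by
        rw [← sg_zero h h12]; congr 1 <;> grind
      rw [this, map_one]
    · rw [← map_pow, pow_succ, pow_two, sg_mul, sg_mul]
      have : sg h w1 w2 h12 (2 + 2 + 2) (0 + 0 + 0) (0 + 0 + 0) = 1 := by
        rw [← sg_zero h h12]; congr 1 <;> grind
      rw [this, map_one]
  have h5 := E.env.single hz
  obtain ⟨k, hk⟩ := (E.ker _).1 h5
  have h6 := hk w1
  rw [sg_apply, h.alt] at h6
  have hk1 : k = 1 := by
    have h7 : (k - 1) • w1 = 0 := by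
      rw [sub_smul, ← h6, one_smul]; module
    rcases smul_eq_zero.1 h7 with h8 | h8
    · exact sub_eq_zero.1 h8
    · exact absurd h8 hne
  obtain ⟨v, hv⟩ := h.exists_ne hne
  have h7 := hk v
  rw [sg_apply, hk1, one_smul] at h7
  have h8 : (2 * B v w1) • w1 = 0 := by
    have : v + (2 * B v w1 + 0 * B v w2) • w1 + (0 * B v w1 + 0 * B v w2) • w2 - v = (2 * B v w1) • w1 := by module
    rw [← this, h7, sub_self]
  rcases smul_eq_zero.1 h8 with h9 | h9
  · rcases mul_eq_zero.1 h9 with h10 | h10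
    · exact h2 h10
    · exact hv (h.swap0 h10)
  · exact hne h9

end env

end Cfsg.Agent.H711.RC
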