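import Cfsg.Agent.H711.RC.ThreeA

/-!
# S3510, row D, `PSp_4(3)`: second part (helper711)

Types 2, 3, 4 of the involution `s` in a two-element cover `{s, ρ t}`.
-/

set_option autoImplicit false
set_option linter.unusedSimpArgs false
open Cfsg

namespace Cfsg.Agent.H711.RC

open MulAction Module Cfsg.Agent.H106.RC Cfsg.Agent.H520.RC

universe u v

section env

variable {F : Type u} {V : Type v} [Field F] [AddCommGroup V] [Module F V] {B : LinearMap.BilinForm F V}
variable {G : Type*} [Group G] {Ω : Type*} [MulAction G Ω] {N : Subgroup G} {ρ : ↥(Sp B) →* G} {s : G}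

/-- type 2: `X ^ 2 = 1`, `μ = 1`, `t` of odd order -/
theorem dead_T2 (E : SpEnv Ω N ρ) [Nonempty Ω] (h3 : Nat.card F = 3) (h4 : finrank F V = 4) {X : SS B} {t : ↥(Sp B)}
    (hX : Lf ρ s X) (hs : s ≠ 1) (hcov : Cov2 Ω s (ρ t)) (hX2 : ∀ v, X (X v) = v) (hl : X.l = 1)
    (hcm : ∀ v, X (t.1 v) = t.1 (X v)) (hodd : ∀ v, t.1 (t.1 v) = v → t.1 v = v) (ht1 : t ≠ 1) : False := by
  have : FiniteDimensional F V := FiniteDimensional.of_finrank_pos (by omega)
  have h33 := f3_three h3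
  have hXl : X.IsLin := f3_aut h3 _
  have h := E.form
  have h2 := f3_two h3
  -- an eigenvector of `X` moved by `t`
  obtain ⟨η, hη, w0, hw0, htw0⟩ : ∃ η : F, η * η = 1 ∧ ∃ w, X w = η • w ∧ t.1 w ≠ w := by
    obtain ⟨v, hv⟩ : ∃ v, t.1 v ≠ v := by
      by_contra hno
      push Not at hno
      exact ht1 (Subtype.ext (LinearEquiv.ext hno))
    by_cases h5 : t.1 (v + X v) = v + X v
    · refine ⟨-1, by ring, v - X v, ?_, fun h6 => hv ?_⟩
      · rw [SS.map_sub, hX2]; module
      · have h7 := split_of (X := X) h33 v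
        rw [h7, map_sub, map_neg, h5, h6]
    · refine ⟨1, by ring, v + X v, ?_, h5⟩
      rw [SS.map_add, hX2, one_smul, add_comm]
  -- the eigenspaces are orthogonal
  have hperp : ∀ u v, X u = η • u → X v = -(η • v) → B u v = 0 := by
    intro u v hu hv
    have h5 := hXl.form u v
    rw [hu, hv, hl, one_mul, map_neg, map_smul, LinearMap.map_smul₂, smul_eq_mul, smul_eq_mul] at h5
    have h6 : 2 * B u v = 0 := by linear_combination -h5 - B u v * hη
    exact (mul_eq_zero.1 h6).resolve_left h2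
  have hpl : ∀ v, X (v + η • X v) = η • (v + η • X v) := by
    intro v
    rw [SS.map_add, hXl.map_smul, hX2, smul_add, smul_smul, hη, one_smul, add_comm]
  have hmi : ∀ v, X (v - η • X v) = -(η • (v - η • X v)) := by
    intro v
    rw [SS.map_sub, hXl.map_smul, hX2, smul_sub, smul_smul, hη, one_smul]
    abel
  have hsplit : ∀ v, v = -(v + η • X v) - (v - η • X v) := by
    intro v
    have h5 : (3 : F) • v = 0 := by rw [h33, zero_smul]
    linear_combination (norm := module) h5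
  -- a vector `e` with `B e (t e) ≠ 0`
  obtain ⟨e, he, hd⟩ : ∃ e, X e = η • e ∧ B e (t.1 e) ≠ 0 := by
    by_contra hno
    push Not at hno
    apply htw0
    apply hodd
    have hX' : X (t.1 w0) = η • t.1 w0 := by rw [hcm, hw0, map_smul]
    have hX'' : X (t.1 (t.1 w0)) = η • t.1 (t.1 w0) := by rw [hcm, hX', map_smul]
    have hw : ∀ u, B u (t.1 (t.1 w0) - w0) = 0 := by
      have k1 : ∀ u, X u = η • u → B u (t.1 (t.1 w0) - w0) = 0 := by
        intro u hu
        have k2 := hno (u + t.1 w0) (by rw [SS.map_add, hu, hX', smul_add])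
        have k3 := hno u hu
        have k4 := hno _ hX'
        have k5 : B (t.1 u) (t.1 w0) = B u w0 := t.2 u w0
        simp only [map_add, LinearMap.add_apply, k3, k4, zero_add, add_zero] at k2
        rw [map_sub, ← k5]
        have k6 := h.swap (t.1 w0) (t.1 u)
        linear_combination k2 - k6
      intro u
      rw [hsplit u, LinearMap.map_sub₂, LinearMap.map_neg₂, k1 _ (hpl u)]
      have k7 := hperp (t.1 (t.1 w0) - w0) (u - η • X u) (by rw [SS.map_sub, hX'', hw0, smul_sub]) (hmi u)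
      rw [h.swap0 k7, neg_zero, sub_zero]
    exact sub_eq_zero.1 (h.nd' _ hw)
  set D := B e (t.1 e) with hD
  have hDD : D * D = 1 := f3_sq h3 hd
  -- the other plane
  obtain ⟨c, hc, hc0⟩ : ∃ c, X c = -(η • c) ∧ c ≠ 0 := by
    by_contra hno
    push Not at hno
    apply hs
    refine (E.eq_one_iff hX).2 ⟨η, fun h0 => ?_, fun v => ?_⟩
    · rw [h0, zero_mul] at hη; exact zero_ne_one hη
    · have h5 := hno _ (hmi v)
      have h6 : X v = η • (η • X v) := by rw [smul_smul, hη, one_smul]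
      rw [h6, ← sub_eq_zero.1 h5]
  obtain ⟨d, hdX, hcd⟩ : ∃ d, X d = -(η • d) ∧ B c d = 1 := by
    obtain ⟨d0, hd0⟩ := h.exists_one hc0
    refine ⟨-(d0 - η • X d0), ?_, ?_⟩
    · rw [SS.map_neg, hmi]; module
    · have h5 := congrArg (B c) (hsplit d0)
      rw [map_sub, map_neg, h.swap0 (hperp _ _ (hpl d0) hc), neg_zero, zero_sub, hd0] at h5
      rw [map_neg]; exact h5.symm
  have hte : t.1 e = D • (D • t.1 e) := by rw [smul_smul, hDD, one_smul]
  have htX : X (t.1 e) = η • t.1 e := by rw [hcm, he, map_smul]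
  set b := D • t.1 e with hb
  have hbX : X b = η • b := by rw [hb, hXl.map_smul, htX, smul_comm]
  have hSB : SB B e b c d :=
    ⟨by rw [hb, map_smul, smul_eq_mul, ← hD, hDD], hcd, hperp _ _ he hc, hperp _ _ he hdX, hperp _ _ hbX hc,
      hperp _ _ hbX hdX⟩
  have ba : B b e = -1 := by rw [h.swap, hSB.ab]
  have dc : B d c = -1 := by rw [h.swap, hSB.cd]
  have ca : B c e = 0 := h.swap0 hSB.ac
  have da : B d e = 0 := h.swap0 hSB.ad
  have cb : B c b = 0 := h.swap0 hSB.bc
  have db : B d b = 0 := h.swap0 hSB.bd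
  -- the commutator
  have hc1 : ρ (tv h e 1) * s = s * ρ (tv h e 1) := by
    have h5 := hX (tv h e 1)
    have h6 : SS.cj X (tv h e 1) = tv h e 1 := by
      rw [cj_tv, he, tv_smul, hl, map_one, inv_one, mul_one, one_mul, hη]
    rw [h6] at h5
    exact (mul_inv_eq_iff_eq_mul.1 h5).symm
  have hcov2 := hcov.comm hc1
  rw [comm_eq, tv_inv, cj_tv] at hcov2
  have hl1 : (SS.tg t).l = 1 := rfl
  have hσ1 : (SS.tg t).σ = 1 := rfl
  rw [hl1, hσ1, inv_one, mul_one, SS.tg_apply] at hcov2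
  set y : ↥(Sp B) := tv h e 1 * tv h (t.1 e) ((1 : F ≃+* F) (-1)) with hy
  have hyv : ∀ v, y.1 v = (tv h e 1).1 ((tv h (D • b) (-1)).1 v) := by
    intro v
    rw [hy, hte]; rfl
  have hyy : ρ y * ρ y = s := by
    have hη0 : -η ≠ 0 := by
      intro h0
      have : η = 0 := neg_eq_zero.1 h0
      rw [this, zero_mul] at hη
      exact zero_ne_one hη
    refine lf_eq E ((Lf.tg y).mul (Lf.tg y)) hX hη0 fun v => ?_
    obtain ⟨x, y, z, w, rfl⟩ := hSB.exists_coord h h4 v
    simp only [SS.mul_apply, SS.tg_apply, hyv, tv_apply, map_add, map_smul, LinearMap.add_apply,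
      LinearMap.smul_apply, smul_eq_mul, ba, dc, ca, da, cb, db, h.alt, hSB.ab, hSB.cd, hSB.ac, hSB.ad, hSB.bc, hSB.bd,
      SS.map_add, hXl.map_smul, he, hbX, hc, hdX]
    clear_value b D
    match_scalars <;> grind
  apply hs
  apply E.env.single
  intro ω
  rcases hcov2 ω with h5 | h5
  · exact h5
  · rw [← hyy, mul_smul, h5, h5]

set_option maxHeartbeats 1000000 in
/-- type 3: `X ^ 2 = -1`, `μ = 1`, `t` of order 3 -/
theorem dead_T3 (E : SpEnv Ω N ρ) [Nonempty Ω] (h3 : Nat.card F = 3) (h4 : finrank F V = 4) {X : SS B} {t : ↥(Sp B)}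
    (hX : Lf ρ s X) (hcov : Cov2 Ω s (ρ t)) (hX2 : ∀ v, X (X v) = -v) (hl : X.l = 1)
    (hcm : ∀ v, X (t.1 v) = t.1 (X v)) (ht3 : ∀ v, t.1 (t.1 (t.1 v)) = v) (ht1 : t ≠ 1) : False := by
  have : FiniteDimensional F V := FiniteDimensional.of_finrank_pos (by omega)
  have h33 := f3_three h3
  have hXl : X.IsLin := f3_aut h3 _
  have h := E.form
  have h2 := f3_two h3
  -- adjoint
  have hadj : ∀ u v, B (X u) v = -B u (X v) := by
    intro u v
    have h5 := hXl.form u (X v)
    rw [hX2, hl, one_mul, map_neg] at h5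
    rw [← h5, neg_neg]
  have hiso : ∀ u v, B (X u) (X v) = B u v := by
    intro u v
    rw [hXl.form, hl, one_mul]
  -- a fixed vector of the form `t v - v`
  obtain ⟨v1, hne, hfix⟩ : ∃ v1, t.1 v1 - v1 ≠ 0 ∧ t.1 (t.1 v1 - v1) = t.1 v1 - v1 := by
    obtain ⟨w0, hw0⟩ : ∃ v, t.1 v ≠ v := by
      by_contra hno
      push Not at hno
      exact ht1 (Subtype.ext (LinearEquiv.ext hno))
    by_cases h5 : t.1 (t.1 w0 - w0) = t.1 w0 - w0
    · exact ⟨w0, sub_ne_zero.2 hw0, h5⟩
    · refine ⟨t.1 w0 - w0, sub_ne_zero.2 h5, ?_⟩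
      have h6 := ht3 w0
      simp only [map_sub, h6]
      have h7 : (3 : F) • t.1 w0 = 0 := by rw [h33, zero_smul]
      have h8 : (3 : F) • t.1 (t.1 w0) = 0 := by rw [h33, zero_smul]
      linear_combination (norm := module) h7 - h8
  have him : ∀ u w, t.1 w = w → B (t.1 u - u) w = 0 := by
    intro u w hw
    have h5 : B (t.1 u) (t.1 w) = B u w := t.2 u w
    rw [LinearMap.map_sub₂, ← h5, hw, sub_self]
  obtain ⟨e, he0, hte, heX⟩ : ∃ e, e ≠ 0 ∧ t.1 e = e ∧ B e (X e) = 0 :=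
    ⟨t.1 v1 - v1, hne, hfix, him v1 _ (by rw [← hcm, hfix])⟩
  have htXe : t.1 (X e) = X e := by rw [← hcm, hte]
  -- the partner
  obtain ⟨f, hef, hXef, hfX⟩ : ∃ f, B e f = 1 ∧ B (X e) f = 0 ∧ B f (X f) = 0 := by
    obtain ⟨f0, hf0⟩ := h.exists_one he0
    set β := B (X e) f0 with hβ
    set κ := 1 * 1 + β * β with hκ
    have hκκ : κ * κ = 1 := f3_sum h3 (Or.inl one_ne_zero)
    have e1 : B e (X f0) = -β := by rw [hβ, hadj, neg_neg]
    have e2 : B (X e) (X f0) = 1 := by rw [hiso, hf0]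
    obtain ⟨f2, hf2, hXf2⟩ : ∃ f, B e f = 1 ∧ B (X e) f = 0 := by
      refine ⟨κ • (f0 - β • X f0), ?_, ?_⟩
      · rw [map_smul, map_sub, map_smul, hf0, e1, smul_eq_mul, smul_eq_mul]
        linear_combination hκκ
      · rw [map_smul, map_sub, map_smul, e2, ← hβ, smul_eq_mul, smul_eq_mul]
        ring
    set γ := B f2 (X f2) with hγ
    have e3 : B f2 e = -1 := by rw [h.swap, hf2]
    have e4 : B (X e) (X f2) = 1 := by rw [hiso, hf2]
    refine ⟨f2 + γ • X e, ?_, ?_, ?_⟩
    · rw [map_add, map_smul, hf2, heX, smul_zero, add_zero]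
    · rw [map_add, map_smul, hXf2, h.alt, smul_zero, add_zero]
    · rw [SS.map_add, hXl.map_smul, hX2]
      simp only [map_add, map_smul, map_neg, LinearMap.add_apply, LinearMap.smul_apply, smul_eq_mul, e3, e4,
        h.swap0 heX, ← hγ]
      linear_combination γ * h33
  have hfe : B f e = -1 := by rw [h.swap, hef]
  have hSB : SB B e f (X e) (X f) :=
    ⟨hef, by rw [hiso, hef], heX, by rw [← neg_neg (B e (X f)), ← hadj, hXef, neg_zero], h.swap0 hXef, hfX⟩
  obtain ⟨x, hx0, htf⟩ : ∃ x : F, x ≠ 0 ∧ t.1 f = f + x • e := by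
    obtain ⟨x, y, z, w, hxy⟩ := hSB.exists_coord h h4 (t.1 f - f)
    have k1 := him f e hte
    have k2 := him f (X e) htXe
    have ca : B (X e) e = 0 := h.swap0 heX
    have da : B (X f) e = 0 := h.swap0 hSB.ad
    have dc : B (X f) (X e) = -1 := by rw [h.swap, hSB.cd]
    rw [hxy] at k1 k2
    simp only [map_add, map_smul, LinearMap.add_apply, LinearMap.smul_apply, smul_eq_mul, h.alt, hfe, ca, da, dc,
      hSB.ac, hSB.bc] at k1 k2
    have hy : y = 0 := by linear_combination -k1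
    have hw : w = 0 := by linear_combination -k2
    rw [hy, hw, zero_smul, zero_smul, add_zero, add_zero] at hxy
    have htf : t.1 f = f + (x • e + z • X e) := by rw [← hxy]; abel
    have htXf : t.1 (X f) = X f + (x • X e - z • e) := by
      rw [← hcm, htf, SS.map_add, SS.map_add, hXl.map_smul, hXl.map_smul, hX2, smul_neg]; abel
    have k3 : B (t.1 f) (t.1 (X f)) = B f (X f) := t.2 f (X f)
    rw [htf, htXf, hfX] at k3
    have cc : B f (X e) = 0 := hSB.bc
    simp only [map_add, map_sub, map_smul, LinearMap.add_apply, LinearMap.smul_apply, smul_eq_mul, h.alt, hfe, ca, cc,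
      hSB.cd, hSB.ad, heX, hfX] at k3
    have hz : z = 0 := by
      have : 2 * z = 0 := by linear_combination k3
      exact (mul_eq_zero.1 this).resolve_left h2
    rw [hz, zero_smul, add_zero] at htf
    refine ⟨x, ?_, htf⟩
    rintro rfl
    rw [zero_smul, add_zero] at htf
    apply ht1
    apply Subtype.ext
    apply LinearEquiv.ext
    intro v
    obtain ⟨x, y, z, w, rfl⟩ := hSB.exists_coord h h4 v
    have htXf' : t.1 (X f) = X f := by rw [← hcm, htf]
    show t.1 _ = _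
    rw [map_add, map_add, map_add, map_smul, map_smul, map_smul, map_smul, hte, htf, htXe, htXf']
    rfl
  have hxx : x * x = 1 := f3_sq h3 hx0
  have htXf : t.1 (X f) = X f + x • X e := by rw [← hcm, htf, SS.map_add, hXl.map_smul]
  -- the commutator with `c`
  have hc1 : ρ (sg h f (X f) hfX x 0 x) * s = s * ρ (sg h f (X f) hfX x 0 x) := by
    have h5 := hX (sg h f (X f) hfX x 0 x)
    have h6 : SS.cj X (sg h f (X f) hfX x 0 x) = sg h f (X f) hfX x 0 x := by
      rw [cj_sg h X hXl]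
      apply sg_congr
      intro v
      rw [hX2, hl, inv_one]
      simp only [map_neg, mul_one]
      module
    rw [h6] at h5
    exact (mul_inv_eq_iff_eq_mul.1 h5).symm
  have hcov2 := hcov.comm hc1
  rw [comm_eq, sg_inv, cj_sg h (SS.tg t) (SS.tg_lin t)] at hcov2
  set y : ↥(Sp B) := _ with hy
  change Cov2 Ω s (ρ y) at hcov2
  have hl1 : (SS.tg t).l⁻¹ = 1 := inv_one
  have hyv : ∀ v, y.1 v = (sg h f (X f) hfX x 0 x).1 (v + (-x * B v (t.1 f) + -0 * B v (t.1 (X f))) • t.1 f +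
      (-0 * B v (t.1 f) + -x * B v (t.1 (X f))) • t.1 (X f)) := by
    intro v
    rw [hy]
    simp only [hl1, mul_one]
    rfl
  have ba := hfe
  have ca : B (X e) e = 0 := h.swap0 heX
  have da : B (X f) e = 0 := h.swap0 hSB.ad
  have cb : B (X e) f = 0 := hXef
  have db : B (X f) f = 0 := h.swap0 hfX
  have dc : B (X f) (X e) = -1 := by rw [h.swap, hSB.cd]
  have hb : ∀ v, (SS.sc B (-x) (neg_ne_zero.2 hx0) * SS.tg y) v = (-x) • y.1 v := fun v => rfl
  refine dead_F E h3 h4 hX ((Lf.tg y).of_scal (L := SS.sc B (-x) (neg_ne_zero.2 hx0))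
    ⟨-x, neg_ne_zero.2 hx0, fun v => rfl⟩) hcov2 hSB rfl rfl (hX2 e) (hX2 f) ?_ ?_ ?_ ?_
  all_goals
    rw [hb, hyv, htf, htXf, sg_apply]
    simp only [map_add, map_smul, LinearMap.add_apply, LinearMap.smul_apply, smul_eq_mul, h.alt, ba, ca, da, cb, db, dc,
      hSB.ab, hSB.ac, hSB.ad, hSB.bc, hSB.bd, hSB.cd]
    match_scalars <;> grind

set_option maxHeartbeats 1000000 in
/-- second half of type 4: `s` and `ρ y` with `Y ^ 2 = -1`, commuting -/
theorem dead_T4b (E : SpEnv Ω N ρ) [Nonempty Ω] (h3 : Nat.card F = 3) (h4 : finrank F V = 4) {X : SS B} {y : ↥(Sp B)}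
    (hX : Lf ρ s X) (hcov : Cov2 Ω s (ρ y)) (hX2 : ∀ v, X (X v) = -v) (hl : X.l = -1)
    (hcm : ∀ v, X (y.1 v) = y.1 (X v)) (hy2 : ∀ v, y.1 (y.1 v) = -v) : False := by
  have : FiniteDimensional F V := FiniteDimensional.of_finrank_pos (by omega)
  have h33 := f3_three h3
  have hXl : X.IsLin := f3_aut h3 _
  have h := E.form
  have h2 := f3_two h3
  have hyi : ∀ u v, B (y.1 u) (y.1 v) = B u v := fun u v => y.2 u v
  have hyadj : ∀ u v, B (y.1 u) v = -B u (y.1 v) := by
    intro u v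
    have h5 := hyi u (y.1 v)
    rw [hy2, map_neg] at h5
    rw [← h5, neg_neg]
  -- `Z = X y`
  have hZ2 : ∀ v, X (y.1 (X (y.1 v))) = v := by
    intro v
    rw [← hcm, hX2, hy2, neg_neg]
  have hZi : ∀ u v, B (X (y.1 u)) (X (y.1 v)) = -B u v := by
    intro u v
    rw [hXl.form, hl, hyi, neg_one_mul]
  have hVn : Nontrivial V := Module.nontrivial_of_finrank_pos (R := F) (by omega)
  obtain ⟨w, hw0, hw⟩ : ∃ w, w ≠ 0 ∧ X (y.1 w) = w := by
    obtain ⟨v0, hv0⟩ := exists_ne (0 : V)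
    obtain ⟨v1, hv1⟩ := h.exists_one hv0
    by_contra hno
    push Not at hno
    have h5 : ∀ v, X (y.1 v) = -v := by
      intro v
      by_contra h6
      refine hno (v + X (y.1 v)) (fun h7 => h6 ?_) ?_
      · rw [eq_neg_iff_add_eq_zero, add_comm]; exact h7
      · rw [map_add, SS.map_add, hZ2, add_comm]
    have h6 := hZi v0 v1
    rw [h5, h5, hv1, LinearMap.map_neg₂, map_neg, neg_neg, hv1] at h6
    exact h2 (by linear_combination h6)
  obtain ⟨f, hwf, hywf, hf⟩ : ∃ f, B w f = 1 ∧ B (y.1 w) f = 0 ∧ X (y.1 f) = -f := by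
    obtain ⟨g0, hg0⟩ := h.exists_one hw0
    have k1 : B w (X (y.1 g0)) = -1 := by
      have := hZi w g0
      rw [hw, hg0] at this
      exact this
    obtain ⟨f0, hf0, hf0Z⟩ : ∃ f0, B w f0 = 1 ∧ X (y.1 f0) = -f0 := by
      refine ⟨-(g0 - X (y.1 g0)), ?_, ?_⟩
      · rw [map_neg, map_sub, hg0, k1]; linear_combination -h33
      · rw [map_neg, map_sub, SS.map_neg, SS.map_sub, hZ2]; abel
    set β := B (y.1 w) f0 with hβ
    set κ := 1 * 1 + β * β with hκ
    have hκκ : κ * κ = 1 := f3_sum h3 (Or.inl one_ne_zero)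
    have e1 : B w (y.1 f0) = -β := by rw [hβ, hyadj, neg_neg]
    have e2 : B (y.1 w) (y.1 f0) = 1 := by rw [hyi, hf0]
    refine ⟨κ • (f0 - β • y.1 f0), ?_, ?_, ?_⟩
    · rw [map_smul, map_sub, map_smul, hf0, e1, smul_eq_mul, smul_eq_mul]
      linear_combination hκκ
    · rw [map_smul, map_sub, map_smul, e2, ← hβ, smul_eq_mul, smul_eq_mul]
      ring
    · have e3 : X (y.1 (y.1 f0)) = -y.1 f0 := by rw [hcm, hf0Z, map_neg]
      rw [map_smul y.1, map_sub y.1, map_smul y.1, hXl.map_smul, SS.map_sub, hXl.map_smul, hf0Z, e3]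
      module
  have hSB : SB B w f (y.1 w) (y.1 f) := by
    refine ⟨hwf, by rw [hyi, hwf], ?_, ?_, h.swap0 hywf, ?_⟩
    · have k1 := hZi w (y.1 w)
      have k2 : X (y.1 (y.1 w)) = y.1 w := by rw [hcm, hw]
      rw [hw, k2] at k1
      have k3 : 2 * B w (y.1 w) = 0 := by linear_combination k1
      exact (mul_eq_zero.1 k3).resolve_left h2
    · rw [← neg_neg (B w (y.1 f)), ← hyadj, hywf, neg_zero]
    · have k1 := hZi f (y.1 f)
      have k2 : X (y.1 (y.1 f)) = -y.1 f := by rw [hcm, hf, map_neg]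
      rw [hf, k2, LinearMap.map_neg₂, map_neg, neg_neg] at k1
      have k3 : 2 * B f (y.1 f) = 0 := by linear_combination k1
      exact (mul_eq_zero.1 k3).resolve_left h2
  set c := y.1 w with hc
  set d := y.1 f with hd
  have hyc : y.1 c = -w := by rw [hc, hy2]
  have hyd : y.1 d = -f := by rw [hd, hy2]
  have hXa : X w = -c := by
    have k1 : X (y.1 c) = c := by rw [hc, hcm, hw]
    rw [hyc, SS.map_neg] at k1
    rw [← k1, neg_neg]
  have hXb : X f = d := by
    have k1 : X (y.1 d) = -d := by rw [hd, hcm, hf, map_neg]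
    rw [hyd, SS.map_neg] at k1
    exact neg_injective k1
  have hXc : X c = w := by
    rw [← neg_neg c, ← hXa, SS.map_neg, hX2, neg_neg]
  have hXd : X d = -f := by rw [← hXb, hX2]
  have ba : B f w = -1 := by rw [h.swap, hSB.ab]
  have dc : B d c = -1 := by rw [h.swap, hSB.cd]
  have ca : B c w = 0 := h.swap0 hSB.ac
  have da : B d w = 0 := h.swap0 hSB.ad
  have cb : B c f = 0 := h.swap0 hSB.bc
  have db : B d f = 0 := h.swap0 hSB.bd
  have hC : ∀ v : V, (sg h w c hSB.ac 1 0 1 * sg h f d hSB.bd (-1) 0 (-1)).1 v =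
    (sg h w c hSB.ac 1 0 1).1 ((sg h f d hSB.bd (-1) 0 (-1)).1 v) := fun v => rfl
  have hC' : ∀ v : V, (sg h f d hSB.bd 1 0 1 * sg h w c hSB.ac (-1) 0 (-1)).1 v =
    (sg h f d hSB.bd 1 0 1).1 ((sg h w c hSB.ac (-1) 0 (-1)).1 v) := fun v => rfl
  have hCy : ρ (sg h w c hSB.ac 1 0 1 * sg h f d hSB.bd (-1) 0 (-1)) * ρ y =
      ρ y * ρ (sg h w c hSB.ac 1 0 1 * sg h f d hSB.bd (-1) 0 (-1)) := by
    rw [← map_mul, ← map_mul]
    congr 1
    apply Subtype.ext
    apply LinearEquiv.ext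
    intro v
    show (sg h w c hSB.ac 1 0 1 * sg h f d hSB.bd (-1) 0 (-1)).1 (y.1 v) =
      y.1 ((sg h w c hSB.ac 1 0 1 * sg h f d hSB.bd (-1) 0 (-1)).1 v)
    obtain ⟨x, y, z, w, rfl⟩ := hSB.exists_coord h h4 v
    simp only [hC, sg_apply, map_add, map_smul, LinearMap.add_apply, LinearMap.smul_apply, smul_eq_mul, ba, dc, ca,
      da, cb, db, h.alt, hSB.ab, hSB.cd, hSB.ac, hSB.ad, hSB.bc, hSB.bd, ← hc, ← hd, hyc, hyd, map_neg,
      LinearMap.neg_apply]
    clear_value c d
    match_scalars <;> ring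
  have hcov3 := hcov.symm.comm hCy
  rw [← map_inv] at hcov3
  have hCi : (sg h w c hSB.ac 1 0 1 * sg h f d hSB.bd (-1) 0 (-1))⁻¹ =
      sg h f d hSB.bd 1 0 1 * sg h w c hSB.ac (-1) 0 (-1) := by
    rw [mul_inv_rev, sg_inv, sg_inv, neg_neg, neg_zero]
  rw [hCi] at hcov3
  have hXinv : ∀ v, X⁻¹ v = -X v := by
    intro v
    apply X.injective
    rw [SS.apply_inv_self, SS.map_neg, hX2, neg_neg]
  refine dead_F E h3 h4 (Lf.tg y) ((((Lf.tg _).mul hX).mul (Lf.tg _)).mul hX.inv) hcov3 hSB rfl rfl hyc hyd ?_ ?_ ?_ ?_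
  all_goals
    simp only [SS.mul_apply, SS.tg_apply, hXinv, hC, hC', sg_apply, map_add, map_smul, LinearMap.add_apply,
      LinearMap.smul_apply, smul_eq_mul, h.alt, ba, ca, da, cb, db, dc, SS.map_add, SS.map_neg, hXl.map_smul, hXa, hXb,
      hXc, hXd, hSB.ab, hSB.ac, hSB.ad, hSB.bc, hSB.bd, hSB.cd, map_neg, LinearMap.neg_apply]
    clear_value c d
    match_scalars <;> grind

set_option maxHeartbeats 1000000 in
/-- type 4: `X ^ 2 = -1`, `μ = -1`, `t` of odd order -/
theorem dead_T4 (E : SpEnv Ω N ρ) [Nonempty Ω] (h3 : Nat.card F = 3) (h4 : finrank F V = 4) {X : SS B} {t : ↥(Sp B)}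
    (hX : Lf ρ s X) (hcov : Cov2 Ω s (ρ t)) (hX2 : ∀ v, X (X v) = -v) (hl : X.l = -1)
    (hcm : ∀ v, X (t.1 v) = t.1 (X v)) (hodd : ∀ v, t.1 (t.1 v) = v → t.1 v = v) (ht1 : t ≠ 1) : False := by
  have : FiniteDimensional F V := FiniteDimensional.of_finrank_pos (by omega)
  have h33 := f3_three h3
  have hXl : X.IsLin := f3_aut h3 _
  have h := E.form
  have h2 := f3_two h3
  have hadj : ∀ u v, B (X u) v = B u (X v) := by
    intro u v
    have h5 := hXl.form u (X v)
    rw [hX2, hl, neg_one_mul, map_neg] at h5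
    exact neg_injective h5
  have hself : ∀ u, B u (X u) = 0 := by
    intro u
    have h5 := h.swap u (X u)
    rw [hadj] at h5
    have h6 : 2 * B u (X u) = 0 := by linear_combination h5
    exact (mul_eq_zero.1 h6).resolve_left h2
  have hXX : ∀ u v, B (X u) (X v) = -B u v := by
    intro u v
    rw [hadj, hX2, map_neg]
  -- a vector `e` with `B e (t e) ≠ 0`
  obtain ⟨e, he⟩ : ∃ e, B e (t.1 e) ≠ 0 := by
    by_contra hno
    push Not at hno
    apply ht1
    apply Subtype.ext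
    apply LinearEquiv.ext
    intro w0
    show t.1 w0 = w0
    apply hodd
    have hw : ∀ u, B u (t.1 (t.1 w0) - w0) = 0 := by
      intro u
      have k2 := hno (u + t.1 w0)
      have k3 := hno u
      have k4 := hno (t.1 w0)
      have k5 : B (t.1 u) (t.1 w0) = B u w0 := t.2 u w0
      simp only [map_add, LinearMap.add_apply, k3, k4, zero_add, add_zero] at k2
      rw [map_sub, ← k5]
      have k6 := h.swap (t.1 w0) (t.1 u)
      linear_combination k2 - k6
    exact sub_eq_zero.1 (h.nd' _ hw)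
  set q := B e (t.1 e) with hq
  set p := B e (X (t.1 e)) with hp
  set n := p * p + q * q with hn
  have hnn : n * n = 1 := f3_sum h3 (Or.inr he)
  -- the basis
  obtain ⟨b, d, hSB, hXc, hXd, hXb, htd⟩ : ∃ b d, SB B e b (X e) d ∧ X (X e) = -e ∧ X d = b ∧ X b = -d ∧
      t.1 e = p • d + q • b := by
    have eq1 : B e (X (t.1 e)) = p := rfl
    have eq2 : B e (t.1 e) = q := rfl
    have eb : B e (n • (p • X (t.1 e) + q • t.1 e)) = 1 := by
      rw [map_smul, map_add, map_smul, map_smul, eq1, eq2, smul_eq_mul, smul_eq_mul, smul_eq_mul]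
      linear_combination hnn
    have ed : B e (n • (p • t.1 e - q • X (t.1 e))) = 0 := by
      rw [map_smul, map_sub, map_smul, map_smul, eq1, eq2, smul_eq_mul, smul_eq_mul, smul_eq_mul]
      ring
    have hd : X (n • (p • t.1 e - q • X (t.1 e))) = n • (p • X (t.1 e) + q • t.1 e) := by
      rw [hXl.map_smul, SS.map_sub, hXl.map_smul, hXl.map_smul, hX2]; module
    have hb : X (n • (p • X (t.1 e) + q • t.1 e)) = -(n • (p • t.1 e - q • X (t.1 e))) := by
      rw [hXl.map_smul, SS.map_add, hXl.map_smul, hXl.map_smul, hX2]; module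
    refine ⟨n • (p • X (t.1 e) + q • t.1 e), n • (p • t.1 e - q • X (t.1 e)), ⟨eb, ?_, hself e, ed, ?_, ?_⟩, hX2 e, hd, hb, ?_⟩
    · rw [hadj, hd, eb]
    · rw [← hd, hXX, h.swap0 ed, neg_zero]
    · rw [← hd, hadj, hd, ← hd]
      exact hself _
    · match_scalars
      · linear_combination -hnn
      · ring
  have htX : X (t.1 e) = p • b - q • d := by
    rw [htd, SS.map_add, hXl.map_smul, hXl.map_smul, hXd, hXb]; module
  have hel := hself e
  set c := X e with hc
  have hba : B b d = 0 := hSB.bd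
  have hdb : B d b = 0 := h.swap0 hba
  -- the element `T`
  have hT : SS.cj X (sg h e c hel (n * q) (n * p) (-(n * q))) = sg h e c hel (n * q) (n * p) (-(n * q)) := by
    rw [cj_sg h X hXl]
    apply sg_congr
    intro v
    rw [hXc, hl, ← hc]
    simp only [map_neg]
    have : (-1 : F)⁻¹ = -1 := by norm_num
    rw [this]
    module
  have hc1 : ρ (sg h e c hel (n * q) (n * p) (-(n * q))) * s = s * ρ (sg h e c hel (n * q) (n * p) (-(n * q))) := by
    have h5 := hX (sg h e c hel (n * q) (n * p) (-(n * q)))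
    rw [hT] at h5
    exact (mul_inv_eq_iff_eq_mul.1 h5).symm
  have hcov2 := hcov.comm hc1
  have htc : t.1 c = X (t.1 e) := by rw [hc, hcm]
  have hl1 : (SS.tg t).l⁻¹ = 1 := inv_one
  have hTt : SS.cj (SS.tg t) (sg h e c hel (n * q) (n * p) (-(n * q)))⁻¹ = sg h d b hdb q (-p) (-q) := by
    rw [sg_inv, cj_sg h (SS.tg t) (SS.tg_lin t)]
    apply sg_congr
    intro v
    rw [SS.tg_apply, SS.tg_apply, htc, htX, htd, hl1]
    simp only [map_add, map_sub, map_smul, smul_eq_mul, mul_one]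
    clear_value c
    match_scalars <;> grind
  rw [comm_eq, hTt] at hcov2
  have hyv : ∀ v, (sg h e c hel (n * q) (n * p) (-(n * q)) * sg h d b hdb q (-p) (-q)).1 v =
    (sg h e c hel (n * q) (n * p) (-(n * q))).1 ((sg h d b hdb q (-p) (-q)).1 v) := fun v => rfl
  have ba : B b e = -1 := by rw [h.swap, hSB.ab]
  have dc : B d c = -1 := by rw [h.swap, hSB.cd]
  have ca : B c e = 0 := h.swap0 hSB.ac
  have da : B d e = 0 := h.swap0 hSB.ad
  have cb : B c b = 0 := h.swap0 hSB.bc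
  have db : B d b = 0 := h.swap0 hSB.bd
  refine dead_T4b E h3 h4 hX hcov2 hX2 hl (fun v => ?_) fun v => ?_
  · obtain ⟨x, y, z, w, rfl⟩ := hSB.exists_coord h h4 v
    simp only [hyv, sg_apply, map_add, map_smul, LinearMap.add_apply, LinearMap.smul_apply, smul_eq_mul, ba, dc, ca,
      da, cb, db, h.alt, hSB.ab, hSB.cd, hSB.ac, hSB.ad, hSB.bc, hSB.bd, ← hc, hXc, hXd, hXb, map_neg,
      LinearMap.neg_apply, SS.map_add, SS.map_neg, hXl.map_smul]
    clear_value c
    match_scalars <;> grind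
  · obtain ⟨x, y, z, w, rfl⟩ := hSB.exists_coord h h4 v
    simp only [hyv, sg_apply, map_add, map_smul, LinearMap.add_apply, LinearMap.smul_apply, smul_eq_mul, ba, dc, ca,
      da, cb, db, h.alt, hSB.ab, hSB.cd, hSB.ac, hSB.ad, hSB.bc, hSB.bd, map_neg, LinearMap.neg_apply]
    clear_value c
    match_scalars <;> grind

end env

end Cfsg.Agent.H711.RC
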